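import Mathlib
import Cfsg.Agent.Lib.Helper22.SylTools

/-!
# Abelian Sylow subgroups: Burnside's fusion lemma and averaging

* `burnside_fusion_abelian`: two elements of an abelian Sylow `p`-subgroup `S` that are conjugate
  are conjugate in `N(S)`.
* `isolated_of_central_normalizer`: an element of an abelian Sylow subgroup `S` that is central in
  `N(S)` is the only one of its conjugates in `S`.
* `exists_central_in_coset`: averaging over a complement of `S` in `N(S)`.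
-/

set_option autoImplicit false

namespace Cfsg.Agent.Lib.Helper22

universe u

section AbSylow

variable {Γ : Type u} [Group Γ] [Finite Γ] {p : ℕ} [Fact p.Prime]

/-- an element conjugating a finite subgroup into itself normalizes it. -/
theorem mem_normalizer_of_conj_le {S : Subgroup Γ} {n : Γ} (h : ∀ s ∈ S, n * s * n⁻¹ ∈ S) :
    n ∈ Subgroup.normalizer (S : Set Γ) := by
  have hpow : ∀ k : ℕ, ∀ s ∈ S, n ^ k * s * (n ^ k)⁻¹ ∈ S := by
    intro k
    induction k with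
    | zero => intro s hs; simpa using hs
    | succ k ih =>
      intro s hs
      have h1 := h _ (ih s hs)
      have h2 : n ^ (k + 1) * s * (n ^ (k + 1))⁻¹ = n * (n ^ k * s * (n ^ k)⁻¹) * n⁻¹ := by
        rw [pow_succ']
        group
      rw [h2]
      exact h1
  rw [Subgroup.mem_normalizer_iff]
  intro s
  refine ⟨h s, fun hs => ?_⟩
  obtain ⟨k, hk⟩ : ∃ k : ℕ, n ^ k = n⁻¹ := by
    have h1 : n⁻¹ ∈ Submonoid.powers n :=
      mem_powers_iff_mem_zpowers.mpr (inv_mem (Subgroup.mem_zpowers n))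
    exact h1
  have h3 := hpow k _ hs
  rw [hk] at h3
  have h4 : n⁻¹ * (n * s * n⁻¹) * n⁻¹⁻¹ = s := by group
  rw [h4] at h3
  exact h3

/-- **Burnside's fusion lemma** for an abelian Sylow subgroup. -/
theorem burnside_fusion_abelian (S : Sylow p Γ)
    (hS : ∀ a ∈ (S : Subgroup Γ), ∀ b ∈ (S : Subgroup Γ), a * b = b * a)
    (x : Γ) (hx : x ∈ (S : Subgroup Γ)) (g : Γ) (hg : g * x * g⁻¹ ∈ (S : Subgroup Γ)) :
    ∃ n ∈ Subgroup.normalizer ((S : Subgroup Γ) : Set Γ), n * x * n⁻¹ = g * x * g⁻¹ := by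
  obtain ⟨w, hw⟩ : ∃ w : Γ, w = g * x * g⁻¹ := ⟨_, rfl⟩
  rw [← hw] at hg ⊢
  have hSC : (S : Subgroup Γ) ≤ Subgroup.centralizer ({w} : Set Γ) := by
    intro s hs
    rw [Subgroup.mem_centralizer_iff]
    intro y hy
    rw [Set.mem_singleton_iff] at hy
    subst hy
    exact hS _ hg _ hs
  have hsyl : IsSyl p (S : Subgroup Γ) (Subgroup.centralizer ({w} : Set Γ)) := by
    refine ⟨hSC, S.isPGroup', fun hdvd => ?_⟩
    exact S.not_dvd_index (hdvd.trans (Subgroup.relIndex_dvd_index_of_le hSC))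
  have hA : IsPGroup p ↥((S : Subgroup Γ).map (MulAut.conj g).toMonoidHom) := S.isPGroup'.map _
  have hAC : (S : Subgroup Γ).map (MulAut.conj g).toMonoidHom ≤
      Subgroup.centralizer ({w} : Set Γ) := by
    rintro _ ⟨s, hs, rfl⟩
    rw [Subgroup.mem_centralizer_iff]
    intro y hy
    rw [Set.mem_singleton_iff] at hy
    subst hy
    have h1 : (MulAut.conj g).toMonoidHom s = g * s * g⁻¹ := rfl
    rw [h1, hw]
    have h2 := hS _ hx _ hs
    calc g * x * g⁻¹ * (g * s * g⁻¹) = g * (x * s) * g⁻¹ := by group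
      _ = g * (s * x) * g⁻¹ := by rw [h2]
      _ = g * s * g⁻¹ * (g * x * g⁻¹) := by group
  obtain ⟨c, hc, hcA⟩ := hsyl.exists_conj_le hAC hA
  refine ⟨c * g, ?_, ?_⟩
  · apply mem_normalizer_of_conj_le
    intro s hs
    have h1 := hcA _ ⟨s, hs, rfl⟩
    have h2 : c * g * s * (c * g)⁻¹ = c * ((MulAut.conj g).toMonoidHom s) * c⁻¹ := by
      show _ = c * (g * s * g⁻¹) * c⁻¹
      group
    rw [h2]
    exact h1
  · rw [Subgroup.mem_centralizer_iff] at hc
    have h1 := hc w (Set.mem_singleton w)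
    calc c * g * x * (c * g)⁻¹ = c * (g * x * g⁻¹) * c⁻¹ := by group
      _ = c * w * c⁻¹ := by rw [hw]
      _ = w * c * c⁻¹ := by rw [h1]
      _ = w := by group

/-- an element of an abelian Sylow subgroup `S` which is central in `N(S)` is isolated in `S`. -/
theorem isolated_of_central_normalizer (S : Sylow p Γ)
    (hS : ∀ a ∈ (S : Subgroup Γ), ∀ b ∈ (S : Subgroup Γ), a * b = b * a)
    (x : Γ) (hx : x ∈ (S : Subgroup Γ))
    (hc : ∀ n ∈ Subgroup.normalizer ((S : Subgroup Γ) : Set Γ), n * x * n⁻¹ = x) :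
    ∀ g : Γ, g * x * g⁻¹ ∈ (S : Subgroup Γ) → g * x * g⁻¹ = x := by
  intro g hg
  obtain ⟨n, hn, hnx⟩ := burnside_fusion_abelian S hS x hx g hg
  rw [← hnx]
  exact hc n hn

/-- **Averaging.**  Let `S` be an abelian Sylow `p`-subgroup, `a ∈ S`, and `P` a subgroup
containing `a⁻¹ * (n a n⁻¹)` for all `n ∈ N(S)`.  Then some element of `a P` is central in
`N(S)`. -/
theorem exists_central_in_coset (S : Sylow p Γ)
    (hS : ∀ a ∈ (S : Subgroup Γ), ∀ b ∈ (S : Subgroup Γ), a * b = b * a)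
    (P : Subgroup Γ) (a : Γ) (ha : a ∈ (S : Subgroup Γ))
    (hcoc : ∀ n ∈ Subgroup.normalizer ((S : Subgroup Γ) : Set Γ), a⁻¹ * (n * a * n⁻¹) ∈ P) :
    ∃ z ∈ P, ∀ n ∈ Subgroup.normalizer ((S : Subgroup Γ) : Set Γ),
      n * (a * z) * n⁻¹ = a * z := by
  classical
  obtain ⟨N, hN⟩ : ∃ N : Subgroup Γ, N = Subgroup.normalizer ((S : Subgroup Γ) : Set Γ) :=
    ⟨_, rfl⟩
  rw [← hN] at hcoc ⊢
  have hSN : (S : Subgroup Γ) ≤ N := hN ▸ Subgroup.le_normalizer
  haveI hnorm : ((S : Subgroup Γ).subgroupOf N).Normal := by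
    rw [hN]
    exact Subgroup.normal_in_normalizer
  have hcop : (Nat.card ((S : Subgroup Γ).subgroupOf N)).Coprime
      ((S : Subgroup Γ).subgroupOf N).index := by
    obtain ⟨e, he⟩ := IsPGroup.iff_card.mp (S.isPGroup'.comap_subtype (K := N))
    have he' : Nat.card ((S : Subgroup Γ).subgroupOf N) = p ^ e := he
    rw [he']
    apply Nat.Coprime.pow_left
    rw [Nat.Prime.coprime_iff_not_dvd Fact.out]
    intro hdvd
    exact S.not_dvd_index (hdvd.trans (Subgroup.relIndex_dvd_index_of_le hSN))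
  obtain ⟨H, hH⟩ := Subgroup.exists_right_complement'_of_coprime hcop
  have hHcard : (Nat.card ↥H).Coprime p := by
    rw [← hH.symm.index_eq_card, Nat.coprime_comm, Nat.Prime.coprime_iff_not_dvd Fact.out]
    intro hdvd
    exact S.not_dvd_index (hdvd.trans (Subgroup.relIndex_dvd_index_of_le hSN))
  haveI : Fintype ↥H := Fintype.ofFinite _
  letI : CommGroup ↥(S : Subgroup Γ) :=
    { (inferInstance : Group ↥(S : Subgroup Γ)) with
      mul_comm := fun a b => Subtype.ext (hS a a.2 b b.2) }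
  have hmemS : ∀ n ∈ N, ∀ s ∈ (S : Subgroup Γ), n * s * n⁻¹ ∈ (S : Subgroup Γ) := by
    intro n hn s hs
    rw [hN] at hn
    exact (Subgroup.mem_normalizer_iff.mp hn s).mp hs
  let κ : (n : ↥N) → (↥(S : Subgroup Γ) →* ↥(S : Subgroup Γ)) := fun n =>
    { toFun := fun s => ⟨(n : Γ) * s * (n : Γ)⁻¹, hmemS n n.2 s s.2⟩
      map_one' := by apply Subtype.ext; simp
      map_mul' := by intro s t; apply Subtype.ext; simp [mul_assoc] }
  have hκ : ∀ (n : ↥N) (s : ↥(S : Subgroup Γ)), ((κ n s : ↥(S : Subgroup Γ)) : Γ) =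
      (n : Γ) * s * (n : Γ)⁻¹ := fun _ _ => rfl
  obtain ⟨A, hA⟩ : ∃ A : ↥(S : Subgroup Γ), (A : Γ) = a := ⟨⟨a, ha⟩, rfl⟩
  obtain ⟨τ, hτdef⟩ : ∃ τ : ↥(S : Subgroup Γ), τ = ∏ h : ↥H, κ (h : ↥N) A := ⟨_, rfl⟩
  have hinvH : ∀ h₀ : ↥H, κ (h₀ : ↥N) τ = τ := by
    intro h₀
    rw [hτdef, map_prod, ← Equiv.prod_comp (Equiv.mulLeft h₀) (fun h : ↥H => κ (h : ↥N) A)]
    apply Finset.prod_congr rfl
    intro h _
    apply Subtype.ext
    rw [hκ, hκ, hκ]
    show _ = (((h₀ * h : ↥H) : ↥N) : Γ) * (A : Γ) * (((h₀ * h : ↥H) : ↥N) : Γ)⁻¹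
    rw [Subgroup.coe_mul, Subgroup.coe_mul]
    group
  have hinv : ∀ n : ↥N, κ n τ = τ := by
    intro n
    obtain ⟨⟨s, h⟩, hsh, -⟩ :=
      (Subgroup.isComplement_iff_existsUnique.mp (Subgroup.isComplement'_def.mp hH)) n
    have hsh' : (s : ↥N) * (h : ↥N) = n := hsh
    have hsS : ((s : ↥N) : Γ) ∈ (S : Subgroup Γ) := Subgroup.mem_subgroupOf.mp s.2
    apply Subtype.ext
    rw [hκ, ← hsh', Subgroup.coe_mul]
    have h1 := congrArg Subtype.val (hinvH h)
    rw [hκ] at h1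
    have h2 := hS _ hsS _ τ.2
    calc ((s : ↥N) : Γ) * ((h : ↥N) : Γ) * (τ : Γ) * (((s : ↥N) : Γ) * ((h : ↥N) : Γ))⁻¹
        = ((s : ↥N) : Γ) * (((h : ↥N) : Γ) * (τ : Γ) * ((h : ↥N) : Γ)⁻¹) * ((s : ↥N) : Γ)⁻¹ := by
          group
      _ = ((s : ↥N) : Γ) * (τ : Γ) * ((s : ↥N) : Γ)⁻¹ := by rw [h1]
      _ = (τ : Γ) * ((s : ↥N) : Γ) * ((s : ↥N) : Γ)⁻¹ := by rw [h2]
      _ = (τ : Γ) := by group
  obtain ⟨q, hqdef⟩ : ∃ q : ↥(S : Subgroup Γ), q = ∏ h : ↥H, A⁻¹ * κ (h : ↥N) A := ⟨_, rfl⟩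
  have hτ : τ = A ^ (Nat.card ↥H) * q := by
    have h1 : ∀ h : ↥H, κ (h : ↥N) A = A * (A⁻¹ * κ (h : ↥N) A) := by
      intro h
      rw [mul_inv_cancel_left]
    rw [hτdef, hqdef, Finset.prod_congr rfl (fun h _ => h1 h), Finset.prod_mul_distrib,
      Finset.prod_const, Finset.card_univ, Nat.card_eq_fintype_card]
  have hq : (q : Γ) ∈ P := by
    have h1 : q ∈ P.subgroupOf (S : Subgroup Γ) := by
      rw [hqdef]
      apply Subgroup.prod_mem
      intro h _
      rw [Subgroup.mem_subgroupOf]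
      have h2 := hcoc ((h : ↥N) : Γ) (h : ↥N).2
      rw [← hA] at h2
      exact h2
    exact Subgroup.mem_subgroupOf.mp h1
  have hAord : (Nat.card ↥H).Coprime (orderOf A) := by
    obtain ⟨k, hk⟩ := S.isPGroup' A
    exact Nat.Coprime.coprime_dvd_right (orderOf_dvd_of_pow_eq_one hk)
      (Nat.Coprime.pow_right k hHcard)
  obtain ⟨m', hm'⟩ := exists_pow_eq_self_of_coprime hAord
  have hτm : τ ^ m' = A * q ^ m' := by
    rw [hτ, mul_pow, hm']
  refine ⟨((q ^ m' : ↥(S : Subgroup Γ)) : Γ), ?_, ?_⟩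
  · rw [Subgroup.coe_pow]
    exact pow_mem hq m'
  · intro n hn
    have h1 : κ ⟨n, hn⟩ (τ ^ m') = τ ^ m' := by
      rw [map_pow, hinv]
    have h2 := congrArg Subtype.val h1
    rw [hκ, hτm, Subgroup.coe_mul, hA] at h2
    exact h2

end AbSylow

end Cfsg.Agent.Lib.Helper22
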