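import Mathlib
import Cfsg.Agent.S0215
import Cfsg.Agent.Lib.Helper84.ZStarFusion
import Cfsg.Agent.Lib.Helper22.AbSylow

/-!
# A 2-element centralizing an abelian Sylow 2-subgroup of a normal subgroup

`exists_central_mul_of_centralizes_sylow`: `Γ = I ⟨a⟩` with `I` normal, `O(Γ) = 1`, `P` an abelian
Sylow 2-subgroup of `I` centralized by the 2-element `a`.  Then `a z` is central in `Γ` for some
`z ∈ P`.  (Burnside fusion + averaging + Glauberman's `Z*`-theorem.)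
-/

set_option autoImplicit false

namespace Cfsg.Agent.Lib.Helper22

universe u

theorem exists_central_mul_of_centralizes_sylow
    {Γ : Type u} [Group Γ] [Finite Γ] (I P : Subgroup Γ) [I.Normal] (hPI : P ≤ I)
    (hP2 : IsPGroup 2 P) (hPs : ¬ 2 ∣ P.relIndex I)
    (hPab : ∀ x ∈ P, ∀ y ∈ P, x * y = y * x) (a : Γ) (j : ℕ) (hord : a ^ 2 ^ j = 1)
    (haP : ∀ x ∈ P, a * x = x * a)
    (hgen : ∀ g : Γ, ∃ i ∈ I, ∃ b ∈ Subgroup.zpowers a, g = i * b)
    (hO : Cfsg.oddCore Γ = ⊥) :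
    ∃ z ∈ P, ∀ g : Γ, g * (a * z) = (a * z) * g := by
  haveI : Fact (Nat.Prime 2) := ⟨Nat.prime_two⟩
  have hZ : Cfsg.Agent.Lib.Helper84.ZStarStmt.{u} :=
    fun G _ _ P t ht htP hiso => Cfsg.Agent.S0215.result P t ht htP hiso
  have hQ2 : IsPGroup 2 ↥(Subgroup.zpowers a) := by
    rintro ⟨y, hy⟩
    refine ⟨j, ?_⟩
    obtain ⟨k, rfl⟩ := Subgroup.mem_zpowers_iff.mp hy
    apply Subtype.ext
    show (a ^ k) ^ 2 ^ j = 1
    rw [← zpow_natCast, ← zpow_mul, mul_comm, zpow_mul, zpow_natCast, hord, one_zpow]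
  have hcz : ∀ b ∈ Subgroup.zpowers a, ∀ x ∈ P, b * x = x * b := by
    intro b hb x hx
    obtain ⟨k, rfl⟩ := Subgroup.mem_zpowers_iff.mp hb
    have h1 : Commute a x := haP x hx
    exact (h1.zpow_left k).eq
  have hPnorm : P ≤ Subgroup.normalizer ((Subgroup.zpowers a : Subgroup Γ) : Set Γ) := by
    intro x hx
    rw [Subgroup.mem_normalizer_iff]
    intro b
    constructor
    · intro hb
      have h1 := hcz b hb x hx
      have h2 : x * b * x⁻¹ = b := by rw [← h1]; group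
      rw [h2]
      exact hb
    · intro hb
      have h1 := hcz _ hb x hx
      have h2 : b = x * b * x⁻¹ := by
        have h3 : x * b = x * (x * b * x⁻¹) := by
          rw [← h1]
          group
        exact mul_left_cancel h3
      rw [h2]
      exact hb
  have hT : IsPGroup 2 ↥(P ⊔ Subgroup.zpowers a) :=
    IsPGroup.to_sup_of_normal_right' hP2 hQ2 hPnorm
  obtain ⟨S, hTS⟩ := hT.exists_le_sylow
  have hPS : P ≤ (S : Subgroup Γ) := le_sup_left.trans hTS
  have haS : ∀ b ∈ Subgroup.zpowers a, b ∈ (S : Subgroup Γ) :=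
    fun b hb => hTS ((le_sup_right : Subgroup.zpowers a ≤ P ⊔ Subgroup.zpowers a) hb)
  have hSI : (S : Subgroup Γ) ⊓ I = P :=
    IsSyl.eq_of_le (p := 2) ⟨hPI, hP2, hPs⟩ (le_inf hPS hPI) inf_le_right
      (S.isPGroup'.to_le inf_le_left)
  have hstruct : ∀ s ∈ (S : Subgroup Γ), ∃ x ∈ P, ∃ b ∈ Subgroup.zpowers a, s = x * b := by
    intro s hs
    obtain ⟨i, hi, b, hb, rfl⟩ := hgen s
    refine ⟨i, ?_, b, hb, rfl⟩
    rw [← hSI]
    refine Subgroup.mem_inf.mpr ⟨?_, hi⟩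
    have h1 : i = i * b * b⁻¹ := by group
    rw [h1]
    exact Subgroup.mul_mem _ hs (Subgroup.inv_mem _ (haS b hb))
  have hSab : ∀ s ∈ (S : Subgroup Γ), ∀ s' ∈ (S : Subgroup Γ), s * s' = s' * s := by
    intro s hs s' hs'
    obtain ⟨x, hx, b, hb, rfl⟩ := hstruct s hs
    obtain ⟨x', hx', b', hb', rfl⟩ := hstruct s' hs'
    have c1 : Commute x x' := hPab x hx x' hx'
    have c2 : Commute b x' := hcz b hb x' hx'
    have c3 : Commute b' x := hcz b' hb' x hx
    have c4 : Commute b b' := by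
      obtain ⟨k, rfl⟩ := Subgroup.mem_zpowers_iff.mp hb
      obtain ⟨k', rfl⟩ := Subgroup.mem_zpowers_iff.mp hb'
      exact (Commute.refl a).zpow_zpow k k'
    exact ((c1.mul_right c3.symm).mul_left (c2.mul_right c4)).eq
  have haS' : a ∈ (S : Subgroup Γ) := haS a (Subgroup.mem_zpowers a)
  have hcoc : ∀ n ∈ Subgroup.normalizer ((S : Subgroup Γ) : Set Γ),
      a⁻¹ * (n * a * n⁻¹) ∈ P := by
    intro n hn
    rw [← hSI]
    refine Subgroup.mem_inf.mpr ⟨Subgroup.mul_mem _ (Subgroup.inv_mem _ haS')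
      ((Subgroup.mem_normalizer_iff.mp hn a).mp haS'), ?_⟩
    obtain ⟨i, hi, b, hb, rfl⟩ := hgen n
    have hba : b * a * b⁻¹ = a := by
      obtain ⟨k, rfl⟩ := Subgroup.mem_zpowers_iff.mp hb
      have h1 : Commute (a ^ k) a := (Commute.refl a).zpow_left k
      rw [h1.eq]
      group
    have h1 : a⁻¹ * (i * b * a * (i * b)⁻¹) = (a⁻¹ * i * a⁻¹⁻¹) * i⁻¹ := by
      have h2 : i * b * a * (i * b)⁻¹ = i * (b * a * b⁻¹) * i⁻¹ := by group
      rw [h2, hba]
      group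
    rw [h1]
    exact Subgroup.mul_mem _ (Subgroup.Normal.conj_mem inferInstance i hi a⁻¹)
      (Subgroup.inv_mem _ hi)
  obtain ⟨z, hzP, hz⟩ := exists_central_in_coset S hSab P a haS' hcoc
  have hxS : a * z ∈ (S : Subgroup Γ) := Subgroup.mul_mem _ haS' (hPS hzP)
  have hall : ∀ y ∈ Subgroup.zpowers (a * z), ∀ g : Γ,
      g * y * g⁻¹ ∈ (S : Subgroup Γ) → g * y * g⁻¹ = y := by
    intro y hy
    obtain ⟨k, rfl⟩ := Subgroup.mem_zpowers_iff.mp hy
    apply isolated_of_central_normalizer S hSab _ (Subgroup.zpow_mem _ hxS k)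
    intro n hn
    rw [← conj_zpow, hz n hn]
  have key := Cfsg.Agent.Lib.Helper84.zstar_two_elt hZ (Nat.card Γ) Γ le_rfl S (a * z) hxS hall
  refine ⟨z, hzP, fun g => ?_⟩
  have h1 := key g
  rw [hO, Subgroup.mem_bot] at h1
  have h2 : g * (a * z) = (g * (a * z) * g⁻¹ * (a * z)⁻¹) * ((a * z) * g) := by group
  rw [h2, h1, one_mul]

end Cfsg.Agent.Lib.Helper22
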